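import Cfsg.Prelude.Def_KGroupFacts
import Cfsg.Agent.Lib.Ree.Struct

/-! Automorphisms of the small Ree groups. -/

set_option autoImplicit false
set_option linter.unusedSectionVars false

namespace Cfsg.Agent.Ree.RG

variable {K : Type*} [Field K] {m : ℕ} {Γ : Type*} [Group Γ] (R : RG K m Γ)
include R

theorem map_Φ (σ : K →+* K) (x : K) : σ (R.Φ x) = R.Φ (σ x) := by rw [R.Φ_def, R.Φ_def, map_pow]

theorem uM_map (σ : K →+* K) (a b c : K) : (uM R.Φ a b c).map σ = uM R.Φ (σ a) (σ b) (σ c) := by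
  ext i j; fin_cases i <;> fin_cases j <;> simp [uM, nm, R.map_Φ]

theorem hM_map (σ : K →+* K) (a : K) : (hM R.Φ a).map σ = hM R.Φ (σ a) := by
  ext i j; fin_cases i <;> fin_cases j <;> simp [hM, R.map_Φ]

theorem wM_map (σ : K →+* K) : (wM K).map σ = wM K := by
  ext i j; fin_cases i <;> fin_cases j <;> simp [wM]

theorem map_mem (σ : K →+* K) (g : Γ) : σ.mapMatrix (R.ρ g) ∈ MonoidHom.mrange R.ρ := by
  have h1 : ∀ a b c, σ.mapMatrix (R.ρ (R.u a b c)) ∈ MonoidHom.mrange R.ρ := fun a b c =>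
    ⟨R.u (σ a) (σ b) (σ c), by rw [R.ρ_u, R.ρ_u, ← uM_map]; rfl⟩
  have h2 : ∀ k, σ.mapMatrix (R.ρ (R.h k)) ∈ MonoidHom.mrange R.ρ := fun k =>
    ⟨R.h (Units.map σ.toMonoidHom k), by rw [R.ρ_h, R.ρ_h]; exact (R.hM_map ..).symm⟩
  have h3 : σ.mapMatrix (R.ρ R.w) ∈ MonoidHom.mrange R.ρ := ⟨R.w, by rw [R.ρ_w]; exact (R.wM_map ..).symm⟩
  rcases R.bruhat g with ⟨a, b, c, k, rfl⟩ | ⟨a, b, c, k, a', b', c', rfl⟩ <;> simp only [map_mul]
  exacts [mul_mem (h1 ..) (h2 _), mul_mem (mul_mem (mul_mem (h1 ..) (h2 _)) h3) (h1 ..)]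

/-- Field endomorphisms. -/
noncomputable def fa (σ : K →+* K) : Γ →* Γ :=
  MonoidHom.mk' (fun g => (R.map_mem σ g).choose) fun a b => R.ρ_inj (by
    have h := fun g => (R.map_mem σ g).choose_spec
    exact (h _).trans (((map_mul ..).trans (congrArg₂ _ (h a) (h b))).trans (by rw [map_mul, map_mul])).symm)

theorem ρ_fa (σ : K →+* K) (g : Γ) : R.ρ (R.fa σ g) = (R.ρ g).map σ := (R.map_mem σ g).choose_spec

theorem fa_u (σ : K →+* K) (a b c : K) : R.fa σ (R.u a b c) = R.u (σ a) (σ b) (σ c) :=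
  R.ρ_inj (by rw [ρ_fa, R.ρ_u, R.ρ_u, uM_map])

theorem fa_h (σ : K →+* K) (k : Kˣ) : R.fa σ (R.h k) = R.h (Units.map σ.toMonoidHom k) :=
  R.ρ_inj (by rw [ρ_fa, R.ρ_h, R.ρ_h, hM_map]; rfl)

theorem fa_w (σ : K →+* K) : R.fa σ R.w = R.w := R.ρ_inj (by rw [ρ_fa, R.ρ_w, R.wM_map])

theorem fa_inj (σ : K →+* K) : Function.Injective (R.fa σ) := fun a b e => R.ρ_inj (by
  have := congrArg R.ρ e
  rw [ρ_fa, ρ_fa] at this
  exact Matrix.map_injective σ.injective this)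

/-- Field automorphisms. -/
noncomputable def fieldAut (σ : K ≃+* K) : MulAut Γ :=
  MulEquiv.ofBijective (R.fa σ) (have := R.finΓ; Finite.injective_iff_bijective.1 (R.fa_inj σ))

theorem fieldAut_apply (σ : K ≃+* K) (g : Γ) : R.fieldAut σ g = R.fa σ g := rfl

theorem cube_eq_one {a b c : K} : R.u a b c ^ 3 = 1 ↔ a = 0 := by simp [u_cube, u_eq_one]

theorem aut_eq_one (f : MulAut Γ) (h1 : ∀ a b c, f (R.u a b c) = R.u a b c) (h2 : ∀ k, f (R.h k) = R.h k) : f = 1 := by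
  obtain ⟨k, hk, -⟩ := R.exists_unit
  have h3 := congrArg f (R.w_mul_h k)
  rw [map_mul, map_mul, h2, h2] at h3
  obtain ⟨⟨l, hl⟩, -⟩ := (R.conj_h_eq hk h3).resolve_left fun h => hk (by
    rw [← Units.val_pow_eq_pow_val, sq, inv_eq_iff_mul_eq_one.1 h.2, Units.val_one])
  have h4 : R.w * R.u 0 0 1 * R.w ∉ R.B := fun h => by simpa [u_eq_one] using R.eq_one_of_conj_mem (R.u_mem ..) h
  obtain ⟨y, hy, j, y', hy', e⟩ := R.bruhat' h4
  have h5 : ∀ y ∈ R.U, f y = y := by rintro _ ⟨a, b, c, rfl⟩; exact h1 ..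
  have h6 := congrArg f e
  simp only [map_mul, h1, h2, h5 y hy, h5 y' hy', hl] at h6
  have h7 := R.bruhat_unique (R.h_conj_mem l hy) hy (R.h_conj_mem l hy') hy' (k := l * j * l) (k' := j * l) (by
    have h8 : R.h l * R.w * R.h l = R.w := by
      rw [h_mul_w, mul_assoc R.w, ← map_mul, inv_mul_cancel, map_one, mul_one]
    have h9 : R.w * (R.h l)⁻¹ = R.h l * R.w := by rw [h_mul_w, map_inv]
    rw [map_mul R.h j, ← mul_assoc y, mul_assoc _ (R.h l) R.w, ← h6, map_mul, map_mul]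
    calc _ = R.h l * (y * R.h j * (R.h l * R.w * R.h l) * y') * (R.h l)⁻¹ := by group
      _ = R.h l * R.w * R.u 0 0 1 * (R.w * (R.h l)⁻¹) := by rw [h8, ← e]; group
      _ = _ := by rw [h9])
  obtain rfl : l = 1 := by simpa [mul_assoc] using h7.2.1
  exact MulEquiv.toMonoidHom_injective (R.hom_ext h1 h2 (by simpa using hl))

theorem aut_eq_fieldAut (f : MulAut Γ) (hU : ∀ g ∈ R.U, f g ∈ R.U) (hH : ∀ k, ∃ l, f (R.h k) = R.h l) {b0 c0 : K}
    (h1 : f (R.u 1 0 0) = R.u 1 b0 c0) : ∃ σ : K ≃+* K, f = R.fieldAut σ := by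
  have := R.fin
  have := R.char
  choose A B C hf using fun a b c : K => hU _ (R.u_mem a b c)
  choose ψ hψ using hH
  have hZ : ∀ b c, A 0 b c = 0 := fun b c => R.cube_eq_one.1 (by rw [← hf, ← map_pow, R.cube_eq_one.2 rfl, map_one])
  have hA : ∀ a b c, A a b c = A a 0 0 := fun a b c => by
    have h2 := congrArg f (R.u_mul_y a 0 0 b c)
    rw [map_mul, hf, hf, hf, u_mul, u_eq_iff, hZ] at h2
    simpa using h2.1.symm
  have hadd : ∀ a c, A (a + c) 0 0 = A a 0 0 + A c 0 0 := fun a c => by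
    have h2 := congrArg f (R.u_mul a 0 0 c 0 0)
    rw [map_mul, hf, hf, hf, u_mul, u_eq_iff, hA (a + c)] at h2
    exact h2.1.symm
  have hconj : ∀ (k : Kˣ) a b c, f (R.u (k * a) (k * R.Φ k * b) (k ^ 2 * R.Φ k * c)) =
      R.u (ψ k * A a b c) (ψ k * R.Φ (ψ k) * B a b c) (ψ k ^ 2 * R.Φ (ψ k) * C a b c) := fun k a b c => by
    rw [← h_conj, ← h_conj, map_mul, map_mul, map_inv, hψ, hf]
  have hone := R.u_inj ((hf ..).symm.trans h1)
  have hfa : ∀ k : Kˣ, f (R.u k 0 0) = R.u (ψ k) (ψ k * R.Φ (ψ k) * b0) (ψ k ^ 2 * R.Φ (ψ k) * c0) := fun k => by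
    simpa [hone] using hconj k 1 0 0
  have hAψ : ∀ k : Kˣ, A k 0 0 = ψ k := fun k => (R.u_inj ((hf ..).symm.trans (hfa k))).1
  let σ0 : K →+* K :=
    { toFun := fun a => A a 0 0
      map_one' := hone.1
      map_mul' := fun a c => by
        by_cases ha : a = 0
        · simp [ha, hZ]
        · have := (R.u_inj ((hf ..).symm.trans (hconj (Units.mk0 a ha) c 0 0))).1
          rwa [← hAψ, hA] at this
      map_zero' := hZ 0 0
      map_add' := hadd }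
  have hσ : ∀ a, A a 0 0 = σ0 a := fun _ => rfl
  have hfa' : ∀ a, f (R.u a 0 0) = R.u (σ0 a) (σ0 a * R.Φ (σ0 a) * b0) (σ0 a ^ 2 * R.Φ (σ0 a) * c0) := fun a => by
    by_cases ha : a = 0
    · simp [ha, u_zero]
    · have := hfa (Units.mk0 a ha)
      rwa [← hAψ] at this
  have hfz : ∀ c, f (R.u 0 0 c) = R.u 0 0 (σ0 c) := fun c => by
    by_cases hc : c = 0
    · simp [hc, u_zero]
    obtain ⟨k, hk⟩ := R.exists_w3 (neg_ne_zero.2 hc)
    have h2 := congrArg f (R.u_cube k 0 0)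
    rw [map_pow, hfa', u_cube, hk, neg_neg, ← R.map_Φ, ← map_pow, ← map_mul, hk, map_neg, neg_neg] at h2
    exact h2.symm
  have hfy : ∀ b c, f (R.u 0 b c) = R.u 0 (σ0 b) (σ0 c) := fun b c => by
    have h2 : f (R.u 0 b b) = f (R.u 1 0 0) * f (R.u 0 b 0) * (f (R.u 1 0 0))⁻¹ := by
      rw [← map_inv, ← map_mul, ← map_mul, u_conj]; simp
    have h3 : f (R.u 0 b b) = f (R.u 0 b 0) * f (R.u 0 0 b) := by rw [← map_mul, u_mul_z, zero_add]
    have h4 := hconj (-1) 0 b 0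
    have h5 : ψ (-1) = -1 := Units.ext (by rw [← hAψ, hσ]; simp)
    simp only [zero_add, mul_zero, map_zero, add_zero, zero_mul, sub_zero, one_mul, zero_pow two_ne_zero, map_mul,
      map_inv, h1, h5, hfz, Units.val_neg, Units.val_one, map_neg, map_one, neg_mul_neg, hf 0 b 0, hZ, u_conj,
      u_mul_z, u_eq_iff] at h2 h3 h4
    rw [h3, u_eq_iff] at h2
    rw [← zero_add c, ← u_mul_z, map_mul, hfz, hf, u_mul_z, hZ, u_eq_iff]
    grind
  have h2 : ∀ a, R.u (σ0 a) (σ0 a * R.Φ (σ0 a) * b0) (σ0 a ^ 2 * R.Φ (σ0 a) * c0) * R.u 1 b0 c0 =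
      R.u (σ0 (a + 1)) (σ0 (a + 1) * R.Φ (σ0 (a + 1)) * b0) (σ0 (a + 1) ^ 2 * R.Φ (σ0 (a + 1)) * c0) *
      R.u 0 (σ0 (-a)) (σ0 (-a ^ 2 + a)) := fun a => by
    have := congrArg f ((R.u_mul a 0 0 1 0 0).trans ((R.u_eq_iff.2 ⟨rfl, by simp, by simp⟩).trans
      (R.u_mul_y (a + 1) 0 0 (-a) (-a ^ 2 + a)).symm))
    rwa [map_mul, map_mul, hfa', h1, hfa', hfy] at this
  simp only [u_mul, u_eq_iff, map_add, map_neg, map_pow, map_one, map_zero] at h2
  obtain rfl : b0 = 0 := by have := (h2 1).2.1; simp only [map_one] at this; grind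
  obtain rfl : c0 = 0 := by
    obtain ⟨k, hk, hk'⟩ := R.exists_unit
    obtain ⟨a, ha⟩ := Finite.injective_iff_surjective.1 σ0.injective k
    have := (h2 a).2.2
    rw [ha] at this
    refine (mul_eq_zero.1 (show ((k : K) - 1) * (R.Φ k - k) * c0 = 0 by grind)).resolve_left
      (mul_ne_zero (fun e => hk (by grind)) (sub_ne_zero.2 hk'))
  let σ : K ≃+* K := RingEquiv.ofBijective σ0 (Finite.injective_iff_bijective.mp σ0.injective)
  refine ⟨σ, (inv_mul_eq_one.1 (R.aut_eq_one _ (fun a b c => ?_) fun k => ?_)).symm⟩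
  · rw [MulAut.mul_apply, MulAut.inv_apply, MulEquiv.symm_apply_eq, fieldAut_apply, fa_u, ← zero_add b, ← zero_add c,
      ← u_mul_y, map_mul, hfa', hfy, u_mul_y]
    simp [σ]
  · rw [MulAut.mul_apply, MulAut.inv_apply, MulEquiv.symm_apply_eq, fieldAut_apply, fa_h, hψ]
    exact congrArg _ (Units.ext (hAψ k).symm)

theorem exists_aut_eq (f : MulAut Γ) : ∃ (x : Γ) (σ : K ≃+* K), f = MulAut.conj x * R.fieldAut σ := by
  have hz1 : R.u 0 0 1 ≠ 1 := by simp [u_eq_one]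
  obtain ⟨x, hx⟩ := R.exists_conj_le_U (R.isPGroup_U.map f.toMonoidHom)
  set f1 := MulAut.conj x * f with hf1
  have hU1 : ∀ g ∈ R.U, f1 g ∈ R.U := fun g hg => hx _ ⟨g, hg, rfl⟩
  have hB1 : ∀ g ∈ R.B, f1 g ∈ R.B := fun g hg =>
    R.mem_B_of_conj_mem (hU1 _ (R.u_mem 0 0 1)) (by simpa using hz1) (by
      rw [← map_inv, ← map_mul, ← map_mul]; exact R.U_le_B (hU1 _ (R.conj_mem_U hg (R.u_mem ..))))
  obtain ⟨k, hk, -⟩ := R.exists_unit
  obtain ⟨y, hy, l, e⟩ := hB1 _ (R.h_mem k)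
  have hl : (l : K) ^ 2 ≠ 1 := fun h => hk (by
    obtain ⟨y', h1, h2⟩ := R.exists_pow_eq y hy l 2
    rw [show l ^ 2 = 1 from Units.ext h, map_one, mul_one, ← e, ← map_pow, ← map_pow] at h2
    have h3 := R.pow_nine h1
    rw [← h2, ← map_pow, MulEquiv.map_eq_one_iff] at h3
    exact congrArg Units.val (R.eq_one_of_h_mem (R.mem_U_of_pow (R.h_mem _) h3)))
  obtain ⟨z, hz, e'⟩ := R.exists_conj_h hl hy
  set f2 := MulAut.conj z⁻¹ * f1 with hf2
  have hU2 : ∀ g ∈ R.U, f2 g ∈ R.U := fun g hg => R.conj_mem_U (inv_mem (R.U_le_B hz)) (hU1 g hg)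
  have hh2 : f2 (R.h k) = R.h l := by rw [hf2, MulAut.mul_apply, e, ← e', MulAut.conj_apply]; group
  have hH2 : ∀ j, ∃ j', f2 (R.h j) = R.h j' := fun j =>
    R.eq_h_of_commute hl (by rw [← hh2, ← map_mul f2, ← map_mul f2, h_comm])
  obtain ⟨a, b, c, hab⟩ := hU2 _ (R.u_mem 1 0 0)
  have ha : a ≠ 0 := fun h => one_ne_zero (R.cube_eq_one.1 (f2.map_eq_one_iff.1 (by
    rw [map_pow, hab, R.cube_eq_one.2 h])))
  obtain ⟨σ, hσ⟩ := R.aut_eq_fieldAut (MulAut.conj (R.h (Units.mk0 a ha)⁻¹) * f2)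
    (fun g hg => R.h_conj_mem _ (hU2 g hg))
    (fun j => (hH2 j).imp fun j' h => by rw [MulAut.mul_apply, h, MulAut.conj_apply, h_comm, mul_inv_cancel_right])
    (by
      rw [MulAut.mul_apply, hab, MulAut.conj_apply, h_conj]
      simp only [Units.val_inv_eq_inv_val, Units.val_mk0, inv_mul_cancel₀ ha]
      rfl)
  refine ⟨(R.h (Units.mk0 a ha)⁻¹ * z⁻¹ * x)⁻¹, σ, ?_⟩
  rw [← hσ, hf2, hf1, map_inv, map_mul, map_mul]
  group

theorem mem_U_of_commute_z {g : Γ} {c : K} (hc : c ≠ 0) (h : g * R.u 0 0 c = R.u 0 0 c * g) : g ∈ R.U := by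
  obtain ⟨_, ⟨x, y, z, rfl⟩, k, rfl⟩ := R.mem_B_of_commute (R.u_mem ..) (by simpa [u_eq_one] using hc) h
  rw [mul_assoc, h_mul_u, ← mul_assoc, ← mul_assoc, mul_left_inj, mul_zero, mul_zero, u_mul_z, z_mul_u, u_eq_iff] at h
  obtain rfl : k = 1 := Units.ext (R.w3_eq_one (mul_right_cancel₀ hc (by linear_combination h.2.2)))
  simpa using R.u_mem ..

theorem eq_of_fieldAut_eq {x : Γ} {σ τ : K ≃+* K} (he : R.fieldAut τ = MulAut.conj x * R.fieldAut σ) : σ = τ := by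
  have h1 := congrArg (fun f : MulAut Γ => f (R.u 0 0 1)) he
  simp only [fieldAut_apply, fa_u, map_zero, map_one, MulAut.mul_apply, MulAut.conj_apply] at h1
  obtain ⟨c, d, e, rfl⟩ := R.mem_U_of_commute_z one_ne_zero (eq_mul_inv_iff_mul_eq.1 h1).symm
  ext a
  have h2 := congrArg (fun f : MulAut Γ => f (R.u a 0 0)) he
  simp only [fieldAut_apply, fa_u, MulAut.mul_apply, MulAut.conj_apply, u_conj, u_eq_iff] at h2
  exact h2.1.symm

theorem card_ringEquiv : Nat.card (K ≃+* K) = 2 * m + 1 := by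
  have : Fact (Nat.Prime 3) := ⟨Nat.prime_three⟩
  have := R.char
  have := R.fin
  letI := ZMod.algebra K 3
  have h1 : Module.finrank (ZMod 3) K = 2 * m + 1 := by
    have := FiniteField.pow_finrank_eq_natCard 3 K
    rw [R.card] at this
    exact Nat.pow_right_injective (by norm_num) this
  rw [← h1, ← IsGalois.card_aut_eq_finrank]
  refine Nat.card_congr ⟨fun σ => AlgEquiv.ofRingEquiv (f := σ) (fun x => ?_), fun σ => σ,
    fun _ => rfl, fun _ => rfl⟩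
  exact congrFun (congrArg DFunLike.coe (Subsingleton.elim
    ((σ : K →+* K).comp (algebraMap (ZMod 3) K)) (algebraMap (ZMod 3) K))) x

theorem card_Out : Nat.card (Cfsg.Out Γ) = 2 * m + 1 := by
  rw [← R.card_ringEquiv]
  symm
  refine Nat.card_eq_of_bijective (fun σ => QuotientGroup.mk (R.fieldAut σ)) ⟨?_, ?_⟩
  · intro σ τ he
    obtain ⟨x, hx⟩ : R.fieldAut τ / R.fieldAut σ ∈ Cfsg.Inn Γ := QuotientGroup.eq_iff_div_mem.mp he.symm
    exact R.eq_of_fieldAut_eq (x := x) (by rw [hx, div_mul_cancel])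
  · intro f
    induction f using QuotientGroup.induction_on with
    | H f =>
      obtain ⟨x, σ, rfl⟩ := R.exists_aut_eq f
      refine ⟨σ, (QuotientGroup.eq_iff_div_mem.mpr ?_).symm⟩
      rw [mul_div_cancel_right]
      exact ⟨x, rfl⟩

end Cfsg.Agent.Ree.RG
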