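import Cfsg.Agent.Lib.Ree.St

/-! Squares of regular semisimple classes in the small Ree groups. -/

set_option autoImplicit false
set_option linter.unusedSectionVars false

namespace Cfsg.Agent.Ree

open Cfsg.Agent.Chev Cfsg.Agent.Char Subgroup Polynomial

variable {K : Type*} [Field K] {m : ℕ} {Γ : Type*} [Group Γ]

theorem exists_mul_of_isConj {x a b g : Γ} (ha : IsConj x a) (hb : IsConj x b) (hg : IsConj (a * b) g) :
    ∃ u v : Γ, g = u * x * u⁻¹ * (v * x * v⁻¹) := by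
  obtain ⟨u, rfl⟩ := isConj_iff.1 ha
  obtain ⟨v, rfl⟩ := isConj_iff.1 hb
  obtain ⟨c, rfl⟩ := isConj_iff.1 hg
  exact ⟨c * u, c * v, by group⟩

namespace RG

variable (R : RG K m Γ)
include R

theorem card_centralizer_nine {a : K} (ha : a ≠ 0) (b c : K) :
    Nat.card (centralizer {R.u a b c}) ≤ 3 * Nat.card K := by
  have := R.fin
  have := R.char
  have h1 : ∀ g : centralizer {R.u a b c}, ∃ p : ({0, 1, -1} : Set K) × K, (g : Γ) =
      R.u (p.1 * a) (p.1 * b + p.1 * a * R.Φ a + p.1 ^ 2 * a * R.Φ a + p.1 * a * R.Φ a) p.2 := fun ⟨g, hg⟩ => by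
    rw [mem_centralizer_singleton_iff] at hg
    obtain ⟨_, ⟨x, y, z, rfl⟩, k, rfl⟩ := R.mem_B_of_commute (R.u_mem ..) (by simp [u_eq_one, ha]) hg
    have h2 := hg
    rw [mul_assoc, h_mul_u, ← mul_assoc, ← mul_assoc, mul_left_inj, u_mul, u_mul, u_eq_iff] at h2
    obtain rfl : k = 1 := Units.ext (mul_right_cancel₀ ha (by rw [Units.val_one]; linear_combination h2.1))
    obtain ⟨e, rfl⟩ : ∃ e, x = e * a := ⟨x / a, by field_simp⟩
    simp only [Units.val_one, map_one, one_mul, one_pow, map_mul, mul_one] at h2 ⊢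
    have h3 : R.Φ e = e := mul_right_cancel₀ (mul_ne_zero ha (R.Φ_ne ha)) (by linear_combination h2.2.1)
    refine ⟨(⟨e, R.Φ_eq_self h3⟩, z), ?_⟩
    rw [h3] at h2
    congr 1
    refine mul_right_cancel₀ ha ?_
    have := h2.2.2
    grind
  choose f hf using h1
  refine (Nat.card_le_card_of_injective f fun g g' e => Subtype.ext (by rw [hf, hf, e])).trans ?_
  rw [Nat.card_prod, Nat.card_coe_set_eq]
  exact Nat.mul_le_mul_right _ ((Set.ncard_insert_le _ _).trans (by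
    simpa using Nat.lt_succ_of_le (Set.ncard_insert_le (1 : K) {-1})))

theorem card_centralizer_six {b : K} (hb : b ≠ 0) :
    Nat.card (centralizer {R.u 0 b 0 * R.h (-1)}) ≤ 3 * Nat.card K := by
  have := R.fin
  have h1 : ∀ g : centralizer {R.u 0 b 0 * R.h (-1)}, ∃ p : ({1, -1} : Set Kˣ) × K, (g : Γ) =
      R.u 0 p.2 0 * R.h p.1 := fun ⟨g, hg⟩ => by
    have h2 : Commute g (R.u 0 b 0 * R.h (-1)) := mem_centralizer_singleton_iff.1 hg
    have h3 := h2.pow_right 2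
    have h4 := h2.mul_right h3
    rw [yi_sq] at h3 h4
    rw [mul_assoc, (R.commute_i_y _).eq, ← mul_assoc, u_mul_y, add_neg_cancel, add_zero, u_zero, one_mul] at h4
    have h5 := R.mem_B_of_commute (R.u_mem ..) (by simp [u_eq_one, hb]) h3
    rcases R.commute_i_cases h4.symm with ⟨b', k, rfl⟩ | ⟨b', k, b'', rfl⟩
    · rw [Commute, SemiconjBy, mul_assoc, h_mul_u, ← mul_assoc, ← mul_assoc, mul_left_inj, u_mul, u_mul, u_eq_iff] at h3
      have h6 := R.w2_eq_one (k := k) (mul_right_cancel₀ hb (by linear_combination -h3.2.1))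
      exact ⟨(⟨k, (sq_eq_one_iff.1 h6).imp Units.ext Units.ext⟩, b'), rfl⟩
    · exact (R.w_not_mem ((mul_mem_cancel_left (mul_mem (R.u_mem_B ..) (R.h_mem _))).1 ((mul_mem_cancel_right
        (R.u_mem_B ..)).1 h5))).elim
  choose f hf using h1
  refine (Nat.card_le_card_of_injective f fun g g' e => Subtype.ext (by rw [hf, hf, e])).trans ?_
  rw [Nat.card_prod, Nat.card_coe_set_eq]
  exact Nat.mul_le_mul_right _ ((Set.ncard_insert_le _ _).trans (by simp))

theorem isConj_uw (y : Γ) (k : Kˣ) : IsConj (y * R.h k * R.w) (R.w * (R.h k)⁻¹ * y) :=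
  isConj_iff.2 ⟨y⁻¹, by rw [← map_inv, ← h_mul_w]; group⟩

theorem exists_mul_of_uhw {x y y' g : Γ} {k : Kˣ} (h : IsConj x (y * R.h k * R.w)) (h' : IsConj x (y' * R.h k * R.w))
    (hg : IsConj (y * y') g) : ∃ u v : Γ, g = u * x * u⁻¹ * (v * x * v⁻¹) :=
  exists_mul_of_isConj h (h'.trans (R.isConj_uw y' k)) (by simpa [mul_assoc, w_w] using hg)

theorem isConj_z {c c' : K} (hc : c ≠ 0) (hc' : c' ≠ 0) : IsConj (R.u 0 0 c) (R.u 0 0 c') := by
  obtain ⟨k, hk⟩ := R.exists_w3 (div_ne_zero hc' hc)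
  exact isConj_iff.2 ⟨R.h k, by simp [h_conj, hk, hc]⟩

theorem isConj_y {b : K} (hb : b ≠ 0) (c c' : K) : IsConj (R.u 0 b c) (R.u 0 b c') :=
  isConj_iff.2 ⟨R.u ((c' - c) / b) 0 0, by simp [u_conj, hb]⟩

theorem isConj_y_or {b b' : K} (hb : b ≠ 0) (hb' : b' ≠ 0) (c c' : K) :
    IsConj (R.u 0 b c) (R.u 0 b' c') ∨ IsConj (R.u 0 b c)⁻¹ (R.u 0 b' c') := by
  obtain ⟨k, hk | hk⟩ := R.exists_w2 (div_ne_zero hb' hb)
  · exact .inl ((isConj_iff.2 ⟨R.h k, by simp [h_conj, hk, hb]⟩ : IsConj _ (R.u 0 b' _)).trans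
      (R.isConj_y hb' (k ^ 2 * R.Φ k * c) c'))
  · exact .inr ((isConj_iff.2 ⟨R.h k, by simp [y_inv, h_conj, hk, hb]⟩ : IsConj _ (R.u 0 b' _)).trans
      (R.isConj_y hb' (-(k ^ 2 * R.Φ k * c)) c'))

theorem tr_inv_uhw (a b c : K) (l : Kˣ) : R.tr ((R.u a b c)⁻¹ * R.h l⁻¹ * R.w) = R.tr (R.u a b c * R.h l⁻¹ * R.w) := by
  have := R.char
  simp only [u_inv, tr_uhw, nm, map_neg, map_sub, map_add, map_mul, map_pow, R.ΦΦ]
  grind

theorem card_tr_le (a b c t : K) (h : R.u a b c ≠ 1) :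
    Nat.card {l : Kˣ // R.tr (R.u a b c * R.h l⁻¹ * R.w) = t} ≤ 3 ^ (m + 1) + 2 := by
  classical
  let p : K[X] := C (-nm R.Φ a b c) * X ^ (3 ^ (m + 1) + 2) -
    C (R.Φ a * c - b ^ 2 + R.Φ a * a * b) * X ^ (3 ^ (m + 1) + 1) + C (a ^ 2) * X - C (1 + t)
  have h1 : p.natDegree ≤ 3 ^ (m + 1) + 2 := by unfold p; compute_degree
  have h2 : p ≠ 0 := fun e => R.nm_ne h (by
    have := congrArg (coeff · (3 ^ (m + 1) + 2)) e
    simpa [p, coeff_X, coeff_C, coeff_one, -map_neg, -map_pow, -map_add, -map_mul, -map_sub] using this)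
  refine (Nat.card_le_card_of_injective (fun l => (⟨l.1, ?_⟩ : p.roots.toFinset))
    fun l l' e => Subtype.ext (Units.ext (congrArg Subtype.val e))).trans ?_
  · have := l.2
    rw [tr_uhw, R.Φ_def l.1] at this
    simp only [Multiset.mem_toFinset, mem_roots h2, IsRoot.def, p, eval_sub, eval_add, eval_mul, eval_C, eval_pow, eval_X]
    linear_combination this
  · rw [Nat.card_eq_fintype_card, Fintype.card_coe]
    exact (Multiset.toFinset_card_le _).trans ((card_roots' p).trans h1)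

end RG

namespace RT

variable [Finite Γ] (R : RT K m Γ)
include R

theorem exists_uhw {x : Γ} (h2 : x ^ 2 ≠ 1) (h3 : ¬ 3 ∣ orderOf x) :
    ∃ a b c l, b ≠ a * R.Φ a ∧ IsConj x (R.u a b c * R.h l⁻¹ * R.w) := by
  by_contra! hc
  have := R.fin
  let P := Σ p : K × K, {l : Kˣ // R.u p.1 (p.1 * R.Φ p.1) p.2 ≠ 1 ∧
    R.tr (R.u p.1 (p.1 * R.Φ p.1) p.2 * R.h l⁻¹ * R.w) = R.tr x}
  have h1 : Nat.card P ≤ Nat.card K ^ 2 * (3 ^ (m + 1) + 2) := by
    have := Fintype.ofFinite K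
    rw [Nat.card_sigma, sq, ← Nat.card_prod, Nat.card_eq_fintype_card (α := K × K), ← smul_eq_mul, ← Finset.card_univ]
    refine Finset.sum_le_card_nsmul _ _ _ fun p _ => ?_
    by_cases h : R.u p.1 (p.1 * R.Φ p.1) p.2 = 1
    · simp [h]
    · simpa [h] using R.card_tr_le _ _ _ (R.tr x) h
  have h4 : ∀ g : {g // IsConj x g}, ∃ z : R.B ⊕ R.U × P, (g : Γ) = z.elim Subtype.val fun z =>
      (z.1 : Γ)⁻¹ * (R.u z.2.1.1 (z.2.1.1 * R.Φ z.2.1.1) z.2.1.2 * R.h z.2.2.1⁻¹ * R.w) * z.1 := fun ⟨g, hg⟩ => by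
    by_cases hB : g ∈ R.B
    · exact ⟨.inl ⟨g, hB⟩, rfl⟩
    obtain ⟨y, hy, k, y', hy', rfl⟩ := R.bruhat' hB
    obtain ⟨a, b, c, e⟩ := mul_mem hy' hy
    have h5 : IsConj x (R.u a b c * R.h k⁻¹⁻¹ * R.w) := hg.trans (isConj_iff.2 ⟨y', by rw [← e, inv_inv]; group⟩)
    obtain rfl : b = a * R.Φ a := by_contra fun h => hc a b c _ h h5
    refine ⟨.inr (⟨y', hy'⟩, ⟨(a, c), k⁻¹, fun h => h2 ?_, (R.tr_congr h5).symm⟩), ?_⟩
    · have h6 := h5.pow 2
      rwa [h, one_mul, sq (_ * _), RG.hw_sq, isConj_one_left] at h6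
    · simp only [Sum.elim_inr, ← e, inv_inv]; group
  choose f hf using h4
  have h5 := Nat.card_le_card_of_injective f fun g g' e => Subtype.ext (by rw [hf, hf, e])
  obtain ⟨p, hp, h6, h7, h8⟩ := R.exists_prime h2 h3
  have h9 := (centralizer {x}).card_mul_index.symm.trans_le (Nat.mul_le_mul (R.card_centralizer hp h6 h7 h8).1
    ((card_isConj_eq_index x).symm.trans_le h5))
  rw [Nat.card_sum, Nat.card_prod, R.card_B, R.card_U, ← mul_add, R.card_eq, mul_left_comm, mul_assoc] at h9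
  have h10 := (Nat.le_of_mul_le_mul_left h9 (by have := R.big; positivity)).trans
    (Nat.mul_le_mul_left _ (add_le_add le_rfl h1))
  obtain ⟨s, hs⟩ := Nat.exists_eq_add_of_le' R.s_pos
  rw [pow_succ 3 m, R.hs, R.q_eq, hs, show 12 * (s + 1) ^ 2 + 12 * (s + 1) + 3 - 1 = 12 * (s + 1) ^ 2 + 12 * (s + 1) + 2
    from rfl] at h10
  ring_nf at h10
  omega

theorem cover {x : Γ} (h2 : x ^ 2 ≠ 1) (h3 : ¬ 3 ∣ orderOf x) {g : Γ} (hg : g ≠ 1) :
    ∃ u v : Γ, g = u * x * u⁻¹ * (v * x * v⁻¹) := by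
  have := R.char
  obtain ⟨p, hp, h4, h5, h6⟩ := R.exists_prime h2 h3
  have hb : ∀ {a}, IsConj a g → Nat.card (centralizer {a}) ≤ 3 * Nat.card K →
      ∃ u v : Γ, g = u * x * u⁻¹ * (v * x * v⁻¹) := fun ha h => by
    refine exists_mul_of_bound (r := 3 ^ (m + 1)) (fun χ => R.le_degree)
      (by rwa [← card_centralizer_congr ha, sq, ← R.r_sq])
      ((Nat.mul_le_mul_left _ (R.card_centralizer hp h4 h5 h6).1).trans_lt ?_)
    obtain ⟨s, hs⟩ := Nat.exists_eq_add_of_le' R.s_pos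
    rw [pow_succ 3 m, R.hs, R.q_eq, hs, Nat.lt_succ_iff, Nat.le_sub_iff_add_le (by nlinarith)]
    ring_nf
    omega
  have hi : IsConj (R.h (-1)) g → ∃ u v : Γ, g = u * x * u⁻¹ * (v * x * v⁻¹) := fun h => by
    obtain ⟨u, v, e⟩ := R.exists_mul_eq_i h2 h3
    exact exists_mul_of_isConj (isConj_iff.2 ⟨u, rfl⟩) (isConj_iff.2 ⟨v, rfl⟩) (e ▸ h)
  have hr : g ^ 2 ≠ 1 → ¬ 3 ∣ orderOf g → ∃ u v : Γ, g = u * x * u⁻¹ * (v * x * v⁻¹) := fun h7 h8 => by
    obtain ⟨p, hp, h4, h5, h6⟩ := R.exists_prime h7 h8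
    exact hb (IsConj.refl g) ((R.card_centralizer hp h4 h5 h6).1.trans (by rw [R.q_eq]; omega))
  by_cases h7 : 3 ∣ orderOf g
  swap
  · by_cases h8 : g ^ 2 = 1
    · exact hi (R.invol _ _ R.orderOf_i (orderOf_eq_prime h8 hg))
    · exact hr h8 h7
  have h8 := orderOf_pow_orderOf_div (orderOf_pos g).ne' h7
  obtain ⟨c, hc⟩ := R.exists_conj_mem_U (g := g ^ (orderOf g / 3)) (n := 1)
    (by rw [pow_one, ← orderOf_dvd_iff_pow_eq_one, h8])
  have h9 : IsConj (c * g * c⁻¹) g := (isConj_iff.2 ⟨c, rfl⟩ : IsConj g _).symm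
  rcases R.B_cases (R.mem_B_of_commute (g := c * g * c⁻¹) hc (fun e => by simp [conj_eq_one_iff.1 e] at h8)
    (((Commute.refl g).pow_right _).map (MulAut.conj c)).eq) with ⟨a, b, c, e⟩ | ⟨b, h⟩ | ⟨k, hk, h⟩
  · rw [e] at h9
    by_cases ha : a = 0
    swap
    · exact hb h9 (R.card_centralizer_nine ha b c)
    subst ha
    by_cases hb : b = 0
    · subst hb
      obtain ⟨l, h10, -⟩ := R.exists_z_tr (t := R.tr x) fun e => h2 (by
        have := (R.isConj_of_tr h3 (by rw [R.orderOf_i]; decide) (e.trans R.tr_i.symm)).pow 2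
        rwa [sq (R.h _), RG.i_mul_i, isConj_one_left] at this)
      have h11 := R.isConj_of_tr' h2 h3 h10.symm
      refine R.exists_mul_of_uhw h11 h11 (IsConj.trans ?_ h9)
      rw [RG.z_mul_z]
      refine R.isConj_z (by rw [one_add_one_eq_two]; exact R.two_ne) ?_
      rintro rfl
      exact hg (by simpa [R.u_zero] using h9.symm)
    · obtain ⟨a', b', c', l, h10, h11⟩ := R.exists_uhw h2 h3
      have h12 : IsConj x (R.u (-a') b' (-c') * R.h l⁻¹ * R.w) := h11.trans (isConj_iff.2 ⟨R.h (-1), by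
        rw [← R.i_conj, mul_assoc (R.u ..), mul_assoc _ (R.h l⁻¹), mul_assoc _ (R.h _)⁻¹, ← mul_assoc (R.h _),
          ((R.commute_i_h _).mul_right R.commute_i_w).inv_left.eq]; group⟩)
      have h13 := R.u_mul a' b' c' (-a') b' (-c')
      rw [add_neg_cancel] at h13
      rcases R.isConj_y_or (b := b' + b' - a' * R.Φ (-a')) (fun e => h10 (by rw [map_neg] at e; grind)) hb _ c
        with h | h
      · exact R.exists_mul_of_uhw h11 h12 (h13 ▸ h.trans h9)
      · refine R.exists_mul_of_uhw (y := (R.u ..)⁻¹) (y' := (R.u ..)⁻¹)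
          (R.isConj_of_tr' h2 h3 ((R.tr_congr h12).trans (R.tr_inv_uhw ..).symm))
          (R.isConj_of_tr' h2 h3 ((R.tr_congr h11).trans (R.tr_inv_uhw ..).symm)) ?_
        rw [← mul_inv_rev, h13]
        exact h.trans h9
  · by_cases hb' : b = 0
    · exact hi (by simpa [hb', R.u_zero] using h.trans h9)
    · exact hb (h.trans h9) (R.card_centralizer_six hb')
  · refine absurd h7 ?_
    rw [← orderOf_congr (h.trans h9), orderOf_injective _ R.h_inj]
    intro h10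
    have := R.fin
    have := R.three_dvd
    have := R.big
    have := h10.trans (orderOf_dvd_natCard k)
    rw [Nat.card_units] at this
    omega

end RT

end Cfsg.Agent.Ree
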