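import Cfsg.Agent.Lib.Chev.Defect

/-! Squares of conjugacy classes through characters. -/

set_option autoImplicit false

namespace Cfsg.Agent.Ree

open Cfsg.Agent.Char Subgroup
open scoped ComplexConjugate

variable {G : Type*} [Group G] [Finite G]

theorem frob_sum_eq_zero [Fintype (IrrCharacter G)] {x g : G} (h : ∀ u v : G, g ≠ u * x * u⁻¹ * (v * x * v⁻¹)) :
    ∑ χ : IrrCharacter G, conj ((χ : G → ℂ) x) ^ 2 * (χ : G → ℂ) g / (χ : G → ℂ) 1 = 0 := by
  classical
  have := Fintype.ofFinite G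
  let f : G → ℂ := fun y => ∑ u : G, if u * x * u⁻¹ = y then 1 else 0
  have h1 : ∀ φ : G → ℂ, ∑ y, f y * φ y = ∑ u, φ (u * x * u⁻¹) := fun φ => by
    simp only [f, Finset.sum_mul]
    rw [Finset.sum_comm]
    simp
  have h2 : IsClassFunction G f := fun y c => by
    simp only [f]
    rw [← Equiv.sum_comp (Equiv.mulLeft c)]
    refine Finset.sum_congr rfl fun u _ => if_congr ?_ rfl rfl
    rw [Equiv.coe_mulLeft, show c * u * x * (c * u)⁻¹ = c * (u * x * u⁻¹) * c⁻¹ by group, mul_left_inj, mul_right_inj]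
  let F : G → ℂ := fun z => ∑ y, f y * f (y⁻¹ * z)
  have h3 : IsClassFunction G F := fun z c => by
    simp only [F]
    rw [← Equiv.sum_comp (MulAut.conj c).toEquiv]
    refine Finset.sum_congr rfl fun y _ => ?_
    rw [← h2 y c, ← h2 (y⁻¹ * z) c]
    simp [mul_assoc]
  have h4 : F g = 0 := by
    simp only [F]
    rw [h1]
    refine Finset.sum_eq_zero fun u _ => Finset.sum_eq_zero fun v _ => if_neg fun e => h u v ?_
    rw [e, mul_inv_cancel_left]
  have h5 : ∀ χ : IrrCharacter G, classInner F χ = Nat.card G * (conj ((χ : G → ℂ) x) ^ 2 / (χ : G → ℂ) 1) :=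
    fun χ => by
      have h6 := isIrr_conj χ.2
      have h7 : ∑ y, f y * conj ((χ : G → ℂ) y) = Nat.card G * conj ((χ : G → ℂ) x) := by
        simp [h1, isClass_of_irr χ.2 x]
      have h8 : ∑ z, F z * conj ((χ : G → ℂ) z) = ∑ z, f z * ∑ y, f y * conj ((χ : G → ℂ) (y * z)) := by
        simp only [F, Finset.sum_mul, Finset.mul_sum]
        rw [Finset.sum_comm, Finset.sum_comm (f := fun z y => f z * _)]
        refine Finset.sum_congr rfl fun y _ => ?_
        rw [← Equiv.sum_comp (Equiv.mulLeft y)]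
        exact Finset.sum_congr rfl fun z _ => by simp; ring
      obtain ⟨d, -, hd⟩ := exists_pos_degree χ.2
      simp only [classInner, h8, sum_class_mul_irr h6 h2, h7, mul_left_comm (f _), ← Finset.mul_sum, hd, map_natCast]
      have := natCard_ne_zero (G := G)
      field_simp
  rw [class_apply_eq_sum_irr h3] at h4
  refine (mul_eq_zero.1 ?_).resolve_left (natCard_ne_zero (G := G))
  rw [← h4, Finset.mul_sum]
  exact Finset.sum_congr rfl fun χ _ => by rw [h5]; ring

theorem sum_norm_sq [Fintype (IrrCharacter G)] (g : G) :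
    ∑ χ : IrrCharacter G, ‖(χ : G → ℂ) g‖ ^ 2 = Nat.card (centralizer ({g} : Set G)) := by
  classical
  have := Fintype.ofFinite G
  have h := second_orthogonality g g
  rw [if_pos (IsConj.refl g)] at h
  simp only [Complex.mul_conj, Complex.normSq_eq_norm_sq] at h
  exact_mod_cast h

theorem exists_mul_of_bound {x g : G} {D r : ℕ} (hD : ∀ χ, IsIrrCharacter G χ → χ ≠ 1 → ∀ d : ℕ, χ 1 = d → D ≤ d)
    (hg : Nat.card (centralizer ({g} : Set G)) ≤ r ^ 2) (h : r * Nat.card (centralizer ({x} : Set G)) < D) :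
    ∃ u v : G, g = u * x * u⁻¹ * (v * x * v⁻¹) := by
  classical
  by_contra! hc
  have := Fintype.ofFinite (IrrCharacter G)
  have h1 := frob_sum_eq_zero hc
  have h0 : (0 : ℝ) < D := by exact_mod_cast Nat.zero_lt_of_lt h
  rw [← Finset.add_sum_erase _ _ (Finset.mem_univ ⟨1, isIrr_one⟩), add_eq_zero_iff_neg_eq] at h1
  have h2 := (congrArg norm h1).trans_le (norm_sum_le _ _)
  have h3 : ∀ χ ∈ Finset.univ.erase (⟨1, isIrr_one⟩ : IrrCharacter G),
      ‖conj ((χ : G → ℂ) x) ^ 2 * (χ : G → ℂ) g / (χ : G → ℂ) 1‖ ≤ ‖(χ : G → ℂ) x‖ ^ 2 * (r / D) := fun χ hχ => by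
    obtain ⟨d, -, hd⟩ := exists_pos_degree χ.2
    have h4 : (D : ℝ) ≤ d := by exact_mod_cast hD _ χ.2 (fun e => (Finset.mem_erase.1 hχ).1 (Subtype.ext e)) d hd
    have h5 : ‖(χ : G → ℂ) g‖ ≤ r := by
      refine (pow_le_pow_iff_left₀ (norm_nonneg _) (Nat.cast_nonneg _) two_ne_zero).1 ?_
      refine (Finset.single_le_sum (f := fun χ : IrrCharacter G => ‖(χ : G → ℂ) g‖ ^ 2) (fun _ _ => by positivity)
        (Finset.mem_univ χ)).trans ?_
      rw [sum_norm_sq]; exact_mod_cast hg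
    rw [norm_div, norm_mul, norm_pow, Complex.norm_conj, hd, Complex.norm_natCast, mul_div_assoc]
    gcongr
  have h4 := h2.trans ((Finset.sum_le_sum h3).trans (Finset.sum_le_sum_of_subset_of_nonneg (Finset.subset_univ _)
    fun _ _ _ => by positivity))
  rw [← Finset.sum_mul, sum_norm_sq, ← mul_div_assoc, le_div_iff₀ h0] at h4
  simp only [Pi.one_apply, map_one, one_pow, mul_one, div_one, norm_neg, norm_one, one_mul] at h4
  exact absurd h (not_lt.2 (by rw [mul_comm]; exact_mod_cast h4))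

theorem exists_isPModular {p : ℕ} (hp : p.Prime) : ∃ M, IsPModular p M := by
  obtain ⟨M, h1, h2⟩ := Ideal.exists_le_maximal (Ideal.span {(p : AlgInt)}) fun h => by
    obtain ⟨u, hu⟩ := (Ideal.span_singleton_eq_top.1 h).exists_right_inv
    have h3 : (p : ℂ) * u = 1 := by exact_mod_cast congrArg Subtype.val hu
    have h4 : (p : ℂ) ≠ 0 := by exact_mod_cast hp.ne_zero
    refine hp.one_lt.ne' (Nat.dvd_one.1 (nat_dvd_of_isIntegral_div hp.ne_zero ?_))
    rw [Nat.cast_one, ← h3, mul_div_cancel_left₀ _ h4]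
    exact u.2
  exact ⟨M, hp, h1, h2 (Ideal.mem_span_singleton_self _)⟩

theorem exists_mul_of_block {x g : G} {p n : ℕ} {M : Ideal AlgInt} (hM : IsPModular p M) {St : G → ℂ}
    (hSt : IsIrrCharacter G St) (h1 : ∀ χ, IsIrrCharacter G χ → χ ≠ St → SameBlock M χ 1)
    (h2 : p ∣ (centralizer ({g} : Set G)).index) (h3 : conj (St x) ^ 2 * centralChar St g = n) (h4 : ¬ p ∣ n) :
    ∃ u v : G, g = u * x * u⁻¹ * (v * x * v⁻¹) := by
  classical
  by_contra! hc
  have := hM.2.1.isPrime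
  have := Fintype.ofFinite (IrrCharacter G)
  have h5 : ∑ χ : IrrCharacter G, conj ((χ : G → ℂ) x) ^ 2 * centralChar (χ : G → ℂ) g = 0 := by
    rw [← mul_zero ((centralizer ({g} : Set G)).index : ℂ), ← frob_sum_eq_zero hc, Finset.mul_sum]
    exact Finset.sum_congr rfl fun χ _ => by rw [centralChar]; ring
  rw [← Finset.add_sum_erase _ _ (Finset.mem_univ ⟨St, hSt⟩), add_eq_zero_iff_eq_neg] at h5
  refine h4 ((locIdeal_natCast_iff hM n).1 ?_)
  rw [← h3, h5]
  refine locIdeal_neg (locIdeal_sum _ fun χ hχ => locIdeal_mul_left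
    (locRing_of_isIntegral ((isIntegral_char (isChar_conj (isChar_of_irr χ.2)) x).pow 2)) ?_)
  have h6 := locIdeal_add (h1 _ χ.2 (fun e => (Finset.mem_erase.1 hχ).1 (Subtype.ext e)) g)
    ((locIdeal_natCast_iff hM _).2 h2)
  simpa [centralChar] using h6

end Cfsg.Agent.Ree
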