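import Cfsg.Agent.Lib.Ree.Trace
import Cfsg.Agent.Lib.Ree.Frob
import Cfsg.Agent.Lib.Ree.Deg
import Cfsg.Agent.Lib.Ree.Aut
import Cfsg.Agent.Lib.Char.Perm
import Cfsg.Agent.Lib.Char.Linear
import Cfsg.Agent.Lib.Chev.Ree3

/-! The Steinberg character and the blocks of the small Ree groups. -/

set_option autoImplicit false
set_option linter.unusedSectionVars false

namespace Cfsg.Agent.Ree.RG

open Cfsg.Agent.Chev Cfsg.Agent.Char Cfsg.Agent.Fix Subgroup
open scoped ComplexConjugate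

variable {K : Type*} [Field K] {m : ℕ} {Γ : Type*} [Group Γ] (R : RG K m Γ)
include R

theorem le_degree {χ : Γ → ℂ} (hχ : IsIrrCharacter Γ χ) (h1 : χ ≠ 1) (d : ℕ) (hd : χ 1 = d) :
    Nat.card K ^ 2 - Nat.card K + 1 ≤ d := by
  have := R.finΓ
  have h2 := mt (irr_eq_one_of_const hχ) h1
  obtain ⟨n, ρ, -, rfl⟩ := hχ
  have h3 := R.le_finrank ρ (by
    by_contra! h
    exact h2 fun g => by simp [Representation.character, h])
  obtain rfl : n = d := by simpa using hd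
  simpa using h3

/-- The projection of the Borel subgroup onto the torus. -/
noncomputable def proj : R.B →* Kˣ :=
  MonoidHom.mk' (fun g => g.2.choose_spec.2.choose) fun a b => by
    obtain ⟨ha, ha'⟩ := a.2.choose_spec
    obtain ⟨hb, hb'⟩ := b.2.choose_spec
    obtain ⟨hc, hc'⟩ := (a * b).2.choose_spec
    refine (R.B_unique hc (mul_mem ha (R.h_conj_mem ha'.choose hb)) ?_).2
    rw [← hc'.choose_spec, map_mul, coe_mul]
    conv_lhs => rw [ha'.choose_spec, hb'.choose_spec]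
    group

theorem proj_eq {y : Γ} (hy : y ∈ R.U) (k : Kˣ) (h : y * R.h k ∈ R.B) : R.proj ⟨y * R.h k, h⟩ = k :=
  (R.B_unique h.choose_spec.1 hy h.choose_spec.2.choose_spec.symm).2

/-- Coordinates on `B`. -/
noncomputable def bEquiv : R.U × Kˣ ≃ R.B :=
  Equiv.ofBijective (fun p => ⟨_, p.1, p.1.2, p.2, rfl⟩) ⟨fun p p' e =>
    have := R.B_unique p.1.2 p'.1.2 (congrArg Subtype.val e)
    Prod.ext (Subtype.ext this.1) this.2, fun ⟨_, y, hy, c, e⟩ => ⟨(⟨y, hy⟩, c), Subtype.ext e.symm⟩⟩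

theorem factorization_card : 3 ^ (Nat.card Γ).factorization 3 = Nat.card K ^ 3 := by
  have := R.finΓ
  have : Fact (Nat.Prime 3) := ⟨Nat.prime_three⟩
  rw [← Sylow.card_eq_multiplicity (R.isPGroup_U.toSylow R.not_dvd_index_U), ← R.card_U]; rfl

theorem eq_St {χ : Γ → ℂ} (hχ : IsIrrCharacter Γ χ) {d : ℕ} (hd : χ 1 = d)
    (h : 3 ^ (Nat.card Γ).factorization 3 ∣ d) : χ = fixedPointCharacter R.B - 1 := by
  classical
  have := R.fin
  have := R.finΓ
  have := R.big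
  have := Fintype.ofFinite Γ
  have := Fintype.ofFinite Kˣ
  have := Fintype.ofFinite (Kˣ →* ℂˣ)
  have : Fact (Nat.Prime 3) := ⟨Nat.prime_three⟩
  have h1 : ∑ y : R.U, χ (y * R.h 1) = χ 1 := by
    rw [Finset.sum_eq_single 1 (fun y _ hy => irr_eq_zero_of_defect_zero hχ hd h ?_) (by simp)]
    · simp
    · obtain ⟨_ | j, -, hj⟩ := (Nat.dvd_prime_pow Nat.prime_three).1 (orderOf_dvd_of_pow_eq_one (R.pow_nine y.2))
      · exact (hy (Subtype.ext (orderOf_eq_one_iff.1 hj))).elim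
      · rw [map_one, mul_one, hj]; exact dvd_pow_self _ j.succ_ne_zero
  obtain ⟨θ, hθ⟩ : ∃ θ : Kˣ →* ℂˣ, classInner (fun k => ∑ y : R.U, χ (y * R.h k)) (fun k => (θ k : ℂ)) ≠ 0 := by
    by_contra! h2
    have := apply_eq_sum_unitsHom (fun k => ∑ y : R.U, χ (y * R.h k)) 1
    simp only [h2, zero_mul, Finset.sum_const_zero, h1] at this
    exact irr_one_ne_zero hχ this
  have h2 := isIrr_unitsHom (θ.comp R.proj)
  have h3 := isChar_indFun R.B (isChar_of_irr h2)
  have h4 : classInner (indFun R.B fun g => ((θ.comp R.proj g : ℂˣ) : ℂ)) χ ≠ 0 := by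
    rw [← conj_inner, _root_.map_ne_zero, inner_indFun_right _ _ (isClass_of_irr hχ), classInner]
    refine mul_ne_zero (inv_ne_zero natCard_ne_zero) fun e => hθ ?_
    rw [← R.bEquiv.sum_comp, Fintype.sum_prod_type_right] at e
    rw [classInner, ← mul_zero (Nat.card Kˣ : ℂ)⁻¹, ← e]
    refine congrArg _ (Finset.sum_congr rfl fun k _ => ?_)
    rw [Finset.sum_mul]
    exact Finset.sum_congr rfl fun y _ => congrArg (fun k => _ * conj ((θ k : ℂˣ) : ℂ)) (R.proj_eq y.2 k _).symm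
  have h5 : indFun R.B (fun g => ((θ.comp R.proj g : ℂˣ) : ℂ)) 1 = (Nat.card K ^ 3 + 1 : ℕ) := by
    simp [indFun_apply_one, R.index_B]
  have h6 := degree_le_of_inner_ne_zero h3 hχ h4 h5 hd
  obtain ⟨d', h7, h8⟩ := exists_pos_degree hχ
  obtain rfl : d' = d := by exact_mod_cast h8.symm.trans hd
  rw [R.factorization_card] at h
  obtain rfl : d' = Nat.card K ^ 3 := by
    obtain ⟨_ | _ | j, rfl⟩ := h
    · simp at h7
    · simp
    · have : 1 < Nat.card K ^ 3 := Nat.one_lt_pow (by decide) (by omega)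
      nlinarith
  have h9 := isIrr_of_degree_one (isChar_sub_irr h3 hχ h4) (by simp only [Pi.sub_apply, h5, hd]; simp)
  have h10 : indFun R.B (fun g => ((θ.comp R.proj g : ℂˣ) : ℂ)) - χ = 1 := by
    by_contra h10
    have := R.le_degree h9 h10 1 (by simp only [Pi.sub_apply, h5, hd]; simp)
    have : Nat.card K < Nat.card K ^ 2 := by nlinarith
    omega
  have h11 : χ ≠ 1 := by
    rintro rfl
    have : Nat.card K ^ 3 = 1 := by exact_mod_cast hd.symm.trans (Pi.one_apply 1)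
    rw [pow_eq_one_iff] at this
    omega
  have h12 := eq_of_inner_irr_ne_zero h2 isIrr_one (by
    have := inner_indFun_left R.B (fun g => ((θ.comp R.proj g : ℂˣ) : ℂ)) isClass_one
    rw [sub_eq_iff_eq_add.1 h10, Char.inner_add_left, inner_one_one, inner_irr_ne hχ isIrr_one h11] at this
    exact this.symm.trans_ne (by simp))
  rw [fixedPointCharacter_eq_indFun, ← h12, ← h10, sub_sub_cancel]

theorem isIrr_St : IsIrrCharacter Γ (fixedPointCharacter R.B - 1) := by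
  classical
  have := R.finΓ
  have := Fintype.ofFinite Γ
  have h1 : classInner (fixedPointCharacter R.B) 1 = 1 := by
    rw [inner_fixedPointCharacter_left _ isClass_one]; exact inner_one_one
  have h2 : Nat.card (MulAction.orbitRel.Quotient R.B (Γ ⧸ R.B)) = 2 := by
    have h3 : ∀ g g' : Γ, Quotient.mk (MulAction.orbitRel R.B (Γ ⧸ R.B)) g = Quotient.mk _ (g' : Γ ⧸ R.B) ↔
        ∃ b ∈ R.B, (b * g')⁻¹ * g ∈ R.B := fun g g' => by
      rw [Quotient.eq, MulAction.orbitRel_apply]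
      exact ⟨fun ⟨b, e⟩ => ⟨b, b.2, QuotientGroup.eq.1 e⟩, fun ⟨b, h, e⟩ => ⟨⟨b, h⟩, QuotientGroup.eq.2 e⟩⟩
    rw [Nat.card_eq_two_iff]
    refine ⟨Quotient.mk _ ((R.w : Γ) : Γ ⧸ R.B), Quotient.mk _ ((1 : Γ) : Γ ⧸ R.B), fun e => ?_,
      Set.eq_univ_of_forall fun x => ?_⟩
    · obtain ⟨b, hb, e⟩ := (h3 ..).1 e
      exact R.w_not_mem ((mul_mem_cancel_left (by simpa using hb)).1 e)
    · induction x using Quotient.inductionOn with | h x => ?_
      induction x using QuotientGroup.induction_on with | H g => ?_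
      rcases R.exists_coset g with h | ⟨y, hy, b, hb, rfl⟩
      · exact .inr ((h3 ..).2 ⟨1, one_mem _, by simpa using h⟩)
      · exact .inl ((h3 ..).2 ⟨y, R.U_le_B hy, by rwa [inv_mul_cancel_left]⟩)
  refine isIrr_of_isGen (isGen_sub (isGen_of_isChar (isChar_fixedPointCharacter _)) isGen_one) ?_
    (by
      rw [Pi.sub_apply, fixedPointCharacter_one, R.index_B, Nat.cast_add_one, Pi.one_apply, add_sub_cancel_right]
      exact Nat.cast_nonneg (α := ℝ) _)
  rw [Char.inner_sub_left, Char.inner_sub_right, Char.inner_sub_right, inner_fixedPointCharacter, h2, h1,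
    ← conj_inner, h1, inner_one_one]
  norm_num

theorem sameBlock_one {M : Ideal AlgInt} (hM : IsPModular 3 M) {χ : Γ → ℂ} (hχ : IsIrrCharacter Γ χ)
    (h : χ ≠ fixedPointCharacter R.B - 1) : SameBlock M χ 1 := by
  have := R.finΓ
  have := Fintype.ofFinite Γ
  have : Fact (Nat.Prime 3) := ⟨Nat.prime_three⟩
  obtain ⟨d, -, hd⟩ := exists_pos_degree hχ
  refine Fix.sameBlock_one hM (fun u hu => ?_) hχ hd fun h1 => h (R.eq_St hχ hd h1)
  obtain ⟨c, hc⟩ := R.exists_conj_mem_U (g := u) (n := 1) (by rw [pow_one, ← hu, pow_orderOf_eq_one])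
  refine ⟨R.B.comap (MulAut.conj c).toMonoidHom, R.U.comap (MulAut.conj c).toMonoidHom, comap_mono R.U_le_B,
    R.isPGroup_U.comap_of_injective _ (MulAut.conj c).injective, fun h hh q hq => ?_, fun x hx => ?_, fun x hx => ?_⟩
  · rw [mem_comap, map_mul, map_mul, map_inv]; exact R.conj_mem_U hh hq
  · exact R.mem_B_of_commute hc (fun e => by simp [conj_eq_one_iff.1 e] at hu) (hx.map (MulAut.conj c)).eq
  · refine R.mem_U_of_commute_z one_ne_zero ?_
    have := ((hx ((MulAut.conj c).symm (R.u 0 0 1)) (by simpa [mul_assoc] using R.u_mem 0 0 1)).map (MulAut.conj c)).eq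
    rwa [MulEquiv.apply_symm_apply] at this

theorem St_h (k : Kˣ) : (fixedPointCharacter R.B - 1) (R.h k) = Nat.card {y : R.U // R.h k * y = y * R.h k} := by
  have := R.finΓ
  have h1 : ∀ y : R.U, R.h k • ((y * R.w : Γ) : Γ ⧸ R.B) = (y * R.w : Γ) ↔ R.h k * y = y * R.h k := fun y => by
    rw [smul_mk_eq_iff, show ((y : Γ) * R.w)⁻¹ * R.h k * (y * R.w) =
      R.w * ((y : Γ)⁻¹ * (R.h k * y * (R.h k)⁻¹)) * R.w * R.h k⁻¹ by
        rw [← R.w_h_w, mul_inv_rev, w_inv]; simp [mul_assoc, w_w], mul_mem_cancel_right (R.h_mem _)]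
    refine ⟨fun h => ?_, fun h => by simp [h, w_mul_w]⟩
    have := R.eq_one_of_conj_mem (mul_mem (inv_mem y.2) (R.h_conj_mem k y.2)) h
    rwa [inv_mul_eq_one, eq_mul_inv_iff_mul_eq, eq_comm] at this
  rw [Pi.sub_apply, Pi.one_apply, sub_eq_iff_eq_add, fixedPointCharacter, ← Nat.cast_add_one, ← Finite.card_option,
    Nat.cast_inj, eq_comm]
  refine Nat.card_congr (Equiv.ofBijective (fun a => ⟨R.cosetEquiv (a.map Subtype.val), ?_⟩)
    ⟨fun a b e => Option.map_injective Subtype.val_injective (R.cosetEquiv.injective (Subtype.mk.inj e)),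
      fun ⟨p, hp⟩ => ?_⟩)
  · rcases a with _ | a
    · exact (smul_mk_eq_iff _).2 (by simpa using R.h_mem _)
    · exact (h1 _).2 a.2
  · obtain ⟨_ | y, rfl⟩ := R.cosetEquiv.surjective p
    · exact ⟨none, rfl⟩
    · exact ⟨some ⟨y, (h1 y).1 hp⟩, rfl⟩

theorem St_i : (fixedPointCharacter R.B - 1) (R.h (-1)) = Nat.card K := by
  rw [St_h, Nat.cast_inj, eq_comm]
  refine Nat.card_congr (Equiv.ofBijective (fun b => ⟨⟨_, R.u_mem 0 b 0⟩, R.commute_i_y b⟩)
    ⟨fun b b' e => (R.u_inj (congrArg (·.1.1) e)).2.1, ?_⟩)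
  rintro ⟨⟨_, a, b, c, rfl⟩, h⟩
  obtain ⟨rfl, rfl, -⟩ := R.eq_of_commute_h R.neg_one_ne h
  exact ⟨b, rfl⟩

/-- Normal forms of the elements of `B`. -/
theorem B_cases {g : Γ} (hg : g ∈ R.B) : g ∈ R.U ∨ (∃ b, IsConj (R.u 0 b 0 * R.h (-1)) g) ∨
    ∃ k : Kˣ, (k : K) ^ 2 ≠ 1 ∧ IsConj (R.h k) g := by
  obtain ⟨_, ⟨a, b, c, rfl⟩, k, rfl⟩ := hg
  by_cases hk : (k : K) ^ 2 = 1
  · rcases sq_eq_one_iff.1 hk with h | h
    · exact .inl (by simp [Units.val_eq_one.1 h, R.u_mem])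
    · obtain ⟨x, -, b', e⟩ := R.exists_conj_i a b c
      obtain rfl : k = -1 := Units.ext h
      exact .inr (.inl ⟨b', isConj_iff.2 ⟨x, e⟩⟩)
  · obtain ⟨x, -, e⟩ := R.exists_conj_h hk (R.u_mem a b c)
    exact .inr (.inr ⟨k, hk, isConj_iff.2 ⟨x, e⟩⟩)

theorem yi_sq (b : K) : (R.u 0 b 0 * R.h (-1)) ^ 2 = R.u 0 (-b) 0 := by
  rw [(R.commute_i_y b).symm.mul_pow, sq, sq, i_mul_i, mul_one, u_mul_y, add_zero,
    show b + b = -b by linear_combination b * R.three]

theorem St_sq {x : Γ} (h2 : x ^ 2 ≠ 1) (h3 : ¬ 3 ∣ orderOf x) :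
    conj ((fixedPointCharacter R.B - 1) x) ^ 2 = 1 := by
  have := R.finΓ
  have h4 : ∀ {g}, g ∈ R.U → ¬ 3 ∣ orderOf g → g = 1 := fun hg h => orderOf_eq_one_iff.1
    (((Nat.prime_three.coprime_iff_not_dvd.2 h).pow_left 2).symm.eq_one_of_dvd
      (orderOf_dvd_of_pow_eq_one (R.pow_nine hg)))
  by_cases h : ∃ c, c⁻¹ * x * c ∈ R.B
  · obtain ⟨c, hc⟩ := h
    have h5 : IsConj (c⁻¹ * x * c) x := isConj_iff.2 ⟨c, by group⟩
    rcases R.B_cases hc with h | ⟨b, h⟩ | ⟨k, hk, h⟩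
    · rw [h4 h (orderOf_congr h5 ▸ h3), isConj_one_right] at h5
      simp [h5] at h2
    · have h6 := (h.trans h5).pow 2
      rw [yi_sq] at h6
      rw [h4 (R.u_mem ..) fun h => h3 ((orderOf_congr h6 ▸ h).trans (orderOf_pow_dvd 2)), isConj_one_right] at h6
      exact (h2 h6).elim
    · rw [← class_eq_of_isConj (isClass_of_irr R.isIrr_St) (h.trans h5), St_h, Nat.card_eq_one_iff_unique.2
        ⟨⟨fun y y' => Subtype.ext (Subtype.ext ((R.eq_one_of_commute_h hk y.1.2 y.2).trans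
          (R.eq_one_of_commute_h hk y'.1.2 y'.2).symm))⟩, ⟨1, by simp⟩⟩]
      simp
  · have : IsEmpty (MulAction.fixedBy (Γ ⧸ R.B) x) := ⟨fun ⟨p, hp⟩ => by
      induction p using QuotientGroup.induction_on with | H g => ?_
      exact h ⟨g, (smul_mk_eq_iff _).1 hp⟩⟩
    simp [fixedPointCharacter]

theorem card_centralizer_i :
    Nat.card (centralizer {R.h (-1)}) = Nat.card K * (Nat.card K - 1) * (Nat.card K + 1) := by
  have := R.fin
  have h1 : ∀ {g}, g ∈ centralizer {R.h (-1)} ↔ Commute (R.h (-1)) g := mem_centralizer_singleton_iff.trans eq_comm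
  rw [← Nat.card_units, mul_add_one, ← Nat.card_prod, ← Nat.card_prod, ← Nat.card_sum, eq_comm]
  refine Nat.card_congr (Equiv.ofBijective (Sum.elim
    (fun p => ⟨R.u 0 p.1.1 0 * R.h p.1.2 * R.w * R.u 0 p.2 0, h1.2 ((((R.commute_i_y _).mul_right
      (R.commute_i_h _)).mul_right R.commute_i_w).mul_right (R.commute_i_y _))⟩)
    fun p => ⟨R.u 0 p.1 0 * R.h p.2, h1.2 ((R.commute_i_y _).mul_right (R.commute_i_h _))⟩) ⟨?_, fun ⟨g, hg⟩ => ?_⟩)
  · have h2 : ∀ b k b' c l, R.u 0 b 0 * R.h k * R.w * R.u 0 b' 0 ≠ R.u 0 c 0 * R.h l := fun b k b' c l e =>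
      R.w_not_mem ((mul_mem_cancel_left (mul_mem (R.u_mem_B ..) (R.h_mem _))).1 ((mul_mem_cancel_right
        (R.u_mem_B ..)).1 (e ▸ mul_mem (R.u_mem_B ..) (R.h_mem _))))
    rintro (p | p) (p' | p') e <;> replace e := congrArg Subtype.val e
    · have := R.bruhat_unique (R.u_mem ..) (R.u_mem ..) (R.u_mem ..) (R.u_mem ..) e
      exact congrArg _ (Prod.ext (Prod.ext (R.u_inj this.1).2.1 this.2.1) (R.u_inj this.2.2).2.1)
    · exact (h2 _ _ _ _ _ e).elim
    · exact (h2 _ _ _ _ _ e.symm).elim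
    · have := R.B_unique (R.u_mem ..) (R.u_mem ..) e
      exact congrArg _ (Prod.ext (R.u_inj this.1).2.1 this.2)
  · rcases R.commute_i_cases (h1.1 hg) with ⟨b, k, rfl⟩ | ⟨b, k, b', rfl⟩
    exacts [⟨.inr (b, k), rfl⟩, ⟨.inl ((b, k), b'), rfl⟩]

theorem index_centralizer_i :
    (centralizer {R.h (-1)}).index = Nat.card K ^ 2 * (Nat.card K * (Nat.card K - 1) + 1) := by
  have h := (centralizer {R.h (-1)}).card_mul_index
  have := R.big
  rw [card_centralizer_i, R.card_eq] at h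
  obtain ⟨n, hn⟩ : ∃ n, Nat.card K = n + 1 := ⟨Nat.card K - 1, by omega⟩
  rw [hn, Nat.add_sub_cancel] at h ⊢
  have : 0 < n := by omega
  exact Nat.eq_of_mul_eq_mul_left (by positivity) (h.trans (by ring))

theorem exists_mul_eq_i {x : Γ} (h2 : x ^ 2 ≠ 1) (h3 : ¬ 3 ∣ orderOf x) :
    ∃ u v : Γ, R.h (-1) = u * x * u⁻¹ * (v * x * v⁻¹) := by
  have := R.finΓ
  have := R.three_dvd
  have := R.big
  obtain ⟨M, hM⟩ := exists_isPModular Nat.prime_three
  refine exists_mul_of_block (n := Nat.card K * (Nat.card K - 1) + 1) hM R.isIrr_St (fun χ => R.sameBlock_one hM)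
    ?_ ?_ ?_
  · rw [index_centralizer_i]; exact dvd_mul_of_dvd_left (dvd_pow R.three_dvd two_ne_zero) _
  · have : (Nat.card K : ℂ) ≠ 0 := by exact_mod_cast (by omega : Nat.card K ≠ 0)
    rw [R.St_sq h2 h3, centralChar, St_i, index_centralizer_i, Pi.sub_apply, fixedPointCharacter_one, index_B]
    simp only [Nat.cast_mul, Nat.cast_pow, Nat.cast_add, Nat.cast_one, Pi.one_apply, add_sub_cancel_right]
    field_simp
  · rw [Nat.dvd_add_right (dvd_mul_of_dvd_left R.three_dvd _)]; decide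

end Cfsg.Agent.Ree.RG
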