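import Cfsg.Agent.Lib.Ree.Tori
import Cfsg.Agent.Lib.Ree.Mult

/-! Semisimple classes of the small Ree groups are determined by their trace. -/

set_option autoImplicit false
set_option linter.unusedSectionVars false

namespace Cfsg.Agent.Ree

open Cfsg.Agent.Chev Subgroup

theorem _root_.Cfsg.Agent.Chev.TorD.ncard_classes {Γ : Type*} [Group Γ] [Finite Γ] {n e c : ℕ} (S : TorD Γ n e c)
    (he : 1 ≤ e) : (ConjClasses.mk '' {a | a ∈ S.T ∧ a ^ 2 ≠ 1}).ncard * c + e = e * n := by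
  classical
  have := Fintype.ofFinite Γ
  have h1 : (ConjClasses.mk '' {a | a ∈ S.T ∧ a ^ 2 ≠ 1}).ncard * c = {a | a ∈ S.T ∧ a ^ 2 ≠ 1}.ncard := by
    rw [Set.ncard_eq_toFinset_card', Set.ncard_eq_toFinset_card', Set.toFinset_image,
      ← smul_eq_mul, ← Finset.sum_const, Finset.card_eq_sum_card_image ConjClasses.mk]
    refine Finset.sum_congr rfl fun x hx => ?_
    obtain ⟨a, ha, rfl⟩ := Finset.mem_image.1 hx
    rw [Set.mem_toFinset] at ha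
    refine (S.cls a ha.1 ha.2).symm.trans ?_
    rw [Nat.card_eq_fintype_card, Fintype.card_subtype]
    congr 1; ext b
    simp only [Finset.mem_filter, Finset.mem_univ, true_and, Set.mem_toFinset, Set.mem_ofPred_eq,
      ConjClasses.mk_eq_mk_iff_isConj]
    refine ⟨fun h => ⟨⟨h.1, fun e => ha.2 ?_⟩, h.2.symm⟩, fun h => ⟨h.1.1, h.2.symm⟩⟩
    obtain ⟨g, rfl⟩ := isConj_iff.1 h.2
    rwa [conj_pow, conj_eq_one_iff] at e
  have h2 := S.card_T_even (one_dvd n)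
  have h3 : (S.T : Set Γ) = {a | a ∈ S.T ∧ a ^ 2 ≠ 1} ∪ insert 1 {a | a ∈ S.T ∧ orderOf a = 2} := by
    ext a
    simp only [SetLike.mem_coe, Set.mem_union, Set.mem_ofPred_eq, Set.mem_insert_iff, orderOf_eq_prime_iff]
    have := one_mem S.T
    grind
  have h4 := congrArg Set.ncard h3
  rw [Set.ncard_union_eq (Set.disjoint_left.2 (by
    rintro a ⟨-, h⟩ (rfl | h') <;> simp_all [orderOf_eq_prime_iff])), Set.ncard_insert_of_notMem (by simp), ← h1,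
    ← Nat.card_coe_set_eq, ← Nat.card_coe_set_eq {a | a ∈ S.T ∧ orderOf a = 2}, SetLike.coe_sort_coe, S.card_T] at h4
  simp only [mul_one, Nat.totient_one] at h2
  rw [h4, Set.coe_ofPred, h2]; omega

theorem _root_.Cfsg.Agent.Chev.TorD.exists_isConj {Γ : Type*} [Group Γ] [Finite Γ] {n e c : ℕ} (S : TorD Γ n e c)
    {p : ℕ} (hp : p.Prime) (h : p ∣ n) {g : Γ} (hg : p ∣ orderOf g) : ∃ a ∈ S.T, a ^ 2 ≠ 1 ∧ IsConj a g := by
  have h1 : ¬ (orderOf g).Coprime n := Nat.Prime.not_coprime_iff_dvd.2 ⟨p, hp, hg, h⟩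
  obtain ⟨x, hx⟩ := S.exists_conj h1
  refine ⟨_, hx, fun e => S.sq_ne_one h1 ?_, isConj_iff.2 ⟨x, by group⟩⟩
  rwa [← MulAut.conj_inv_apply, ← map_pow, EmbeddingLike.map_eq_one_iff] at e

theorem card_centralizer_congr {Γ : Type*} [Group Γ] [Finite Γ] {a g : Γ} (h : IsConj a g) :
    Nat.card (centralizer {a}) = Nat.card (centralizer {g}) := by
  obtain ⟨c, rfl⟩ := isConj_iff.1 h
  refine Nat.card_congr ((MulAut.conj c).toEquiv.subtypeEquiv fun x => ?_)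
  simp only [mem_centralizer_singleton_iff, ← MulAut.conj_apply, MulEquiv.toEquiv_eq_coe, EquivLike.coe_coe,
    ← map_mul, EmbeddingLike.apply_eq_iff_eq]

theorem orderOf_congr {Γ : Type*} [Group Γ] {a g : Γ} (h : IsConj a g) : orderOf a = orderOf g := by
  obtain ⟨c, rfl⟩ := isConj_iff.1 h
  rw [← MulAut.conj_apply, MulEquiv.orderOf_eq]

variable {K : Type*} [Field K] {m : ℕ} {Γ : Type*} [Group Γ]

namespace RG

variable (R : RG K m Γ)

/-- The trace in the seven-dimensional representation. -/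
def tr (g : Γ) : K := (R.ρ g).trace

theorem tr_mul_comm (g g' : Γ) : R.tr (g * g') = R.tr (g' * g) := by
  simp only [tr, map_mul]; exact Matrix.trace_mul_comm ..

theorem tr_congr {g g' : Γ} (h : IsConj g g') : R.tr g = R.tr g' := by
  obtain ⟨c, rfl⟩ := isConj_iff.1 h
  rw [tr_mul_comm, inv_mul_cancel_left]

theorem tr_uhw (a b c : K) (l : Kˣ) : R.tr (R.u a b c * R.h l⁻¹ * R.w) = -1 - nm R.Φ a b c * (l ^ 2 * R.Φ l) -
    (R.Φ a * c - b ^ 2 + R.Φ a * a * b) * (l * R.Φ l) + a ^ 2 * l := by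
  simp only [tr, map_mul, R.ρ_u, R.ρ_h, R.ρ_w, uM, hM, wM, mul7, Matrix.trace, Fin.sum_univ_seven]
  simp
  ring

theorem tr_i : R.tr (R.h (-1)) = -1 := by
  simp only [tr, R.ρ_h, hM, Matrix.trace, Fin.sum_univ_seven]
  simp

theorem exists_pow_tr (g : Γ) : ∃ n, ¬ 3 ∣ orderOf (g ^ n) ∧ R.tr (g ^ n) = R.tr g := by
  have := R.fin
  have := R.finΓ
  have := Fintype.ofFinite K
  refine ⟨Nat.card K ^ orderOf g, fun h => ?_, ?_⟩
  · obtain ⟨a, n, hn, e⟩ := Nat.exists_eq_pow_mul_and_not_dvd (orderOf_pos g).ne' 3 (by decide)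
    refine hn (h.trans (orderOf_dvd_of_pow_eq_one ?_))
    rw [← pow_mul, ← orderOf_dvd_iff_pow_eq_one]
    refine e.dvd.trans (mul_dvd_mul_right ((pow_dvd_pow _ ?_).trans (pow_dvd_pow_of_dvd R.three_dvd _)) _)
    exact (Nat.lt_pow_self (by decide)).le.trans (Nat.le_of_dvd (orderOf_pos g) (e ▸ dvd_mul_right _ _))
  · induction orderOf g with
    | zero => simp
    | succ n ih =>
      rw [pow_succ, pow_mul, tr, map_pow, Nat.card_eq_fintype_card, FiniteField.trace_pow_card, FiniteField.pow_card,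
        ← Nat.card_eq_fintype_card, ← ih, tr]

theorem exists_z_tr {t : K} (ht : t ≠ -1) : ∃ l : Kˣ, R.tr (R.u 0 0 1 * R.h l⁻¹ * R.w) = t ∧
    R.tr (R.u 0 0 (-1) * R.h l⁻¹ * R.w) = t := by
  obtain ⟨l, hl⟩ := R.exists_w3 (c := t + 1) fun e => ht (eq_neg_of_add_eq_zero_left e)
  exact ⟨l, by rw [tr_uhw]; simp [nm, hl], by rw [tr_uhw]; simp [nm, hl]⟩

theorem exists_tr (t : K) : ∃ g, ¬ 3 ∣ orderOf g ∧ R.tr g = t := by
  by_cases ht : t = -1
  · exact ⟨_, by rw [R.orderOf_i]; decide, ht ▸ R.tr_i⟩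
  · obtain ⟨l, hl, -⟩ := R.exists_z_tr ht
    obtain ⟨n, h1, h2⟩ := R.exists_pow_tr (R.u 0 0 1 * R.h l⁻¹ * R.w)
    exact ⟨_, h1, h2.trans hl⟩

include R in
theorem exists_prime {g : Γ} (h2 : g ^ 2 ≠ 1) (h3 : ¬ 3 ∣ orderOf g) :
    ∃ p : ℕ, p.Prime ∧ p ≠ 2 ∧ p ≠ 3 ∧ p ∣ orderOf g := by
  have := R.finΓ
  by_contra! h
  refine h2 ((sq g).trans (R.sq_eq_one_of_pow (n := (orderOf g).primeFactorsList.length) ?_))
  rw [← Nat.eq_prime_pow_of_unique_prime_dvd (orderOf_pos g).ne' fun {p} hp hd => ?_, pow_orderOf_eq_one]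
  by_contra h4
  exact h p hp h4 (by rintro rfl; exact h3 hd) hd

end RG

namespace RT

variable [Finite Γ] (R : RT K m Γ)

theorem tor_cases {g : Γ} {p : ℕ} (hp : p.Prime) (h2 : p ≠ 2) (h3 : p ≠ 3) (h : p ∣ orderOf g) :
    (∃ a ∈ R.T1.T, a ^ 2 ≠ 1 ∧ IsConj a g) ∨ (∃ a ∈ R.T2.T, a ^ 2 ≠ 1 ∧ IsConj a g) ∨
      (∃ a ∈ R.T3.T, a ^ 2 ≠ 1 ∧ IsConj a g) ∨ ∃ a ∈ R.T4.T, a ^ 2 ≠ 1 ∧ IsConj a g :=
  (R.prime_cases hp h2 h3 (h.trans (orderOf_dvd_natCard g))).imp (R.T1.exists_isConj hp · h)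
    (.imp (R.T2.exists_isConj hp · h) (.imp (R.T3.exists_isConj hp · h) (R.T4.exists_isConj hp · h)))

theorem card_centralizer {g : Γ} {p : ℕ} (hp : p.Prime) (h2 : p ≠ 2) (h3 : p ≠ 3) (h : p ∣ orderOf g) :
    Nat.card (centralizer {g}) ≤ 12 * R.s ^ 2 + 18 * R.s + 7 ∧ ¬ 3 ∣ Nat.card (centralizer {g}) := by
  rcases R.tor_cases hp h2 h3 h with ⟨a, h1, h4, h5⟩ | ⟨a, h1, h4, h5⟩ | ⟨a, h1, h4, h5⟩ | ⟨a, h1, h4, h5⟩ <;>
    rw [← card_centralizer_congr h5, TorD.cen _ a h1 h4, TorD.card_T] <;> omega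

theorem isConj_of_tr {g g' : Γ} (hg : ¬ 3 ∣ orderOf g) (hg' : ¬ 3 ∣ orderOf g') (h : R.tr g = R.tr g') :
    IsConj g g' := by
  have := R.fin
  let f : ConjClasses Γ → K := Quotient.lift R.tr fun _ _ h => R.tr_congr h
  let S := ConjClasses.mk '' {g : Γ | ¬ 3 ∣ orderOf g}
  have h1 : f '' S = Set.univ := Set.eq_univ_of_forall fun t =>
    let ⟨g, h1, h2⟩ := R.exists_tr t; ⟨_, ⟨g, h1, rfl⟩, h2⟩
  have h2 : S ⊆ {ConjClasses.mk 1, ConjClasses.mk (R.h (-1))} ∪ (ConjClasses.mk '' {a | a ∈ R.T1.T ∧ a ^ 2 ≠ 1} ∪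
      (ConjClasses.mk '' {a | a ∈ R.T2.T ∧ a ^ 2 ≠ 1} ∪ (ConjClasses.mk '' {a | a ∈ R.T3.T ∧ a ^ 2 ≠ 1} ∪
      ConjClasses.mk '' {a | a ∈ R.T4.T ∧ a ^ 2 ≠ 1}))) := by
    rintro _ ⟨g, hg, rfl⟩
    by_cases h3 : g ^ 2 = 1
    · by_cases h4 : g = 1
      · exact .inl (.inl (by rw [h4]))
      · exact .inl (.inr (ConjClasses.mk_eq_mk_iff_isConj.2 (R.invol _ _ (orderOf_eq_prime h3 h4) R.orderOf_i)))
    · obtain ⟨p, hp, h4, h5, h6⟩ := R.exists_prime h3 hg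
      simpa only [Set.mem_union, Set.mem_image, Set.mem_ofPred_eq, ConjClasses.mk_eq_mk_iff_isConj, and_assoc] using
        Or.inr (R.tor_cases hp h4 h5 h6)
  have h3 : S.ncard ≤ Nat.card K := by
    have h4 := (Set.ncard_le_ncard h2).trans ((Set.ncard_union_le _ _).trans (add_le_add (Set.ncard_insert_le _ _)
      ((Set.ncard_union_le _ _).trans (add_le_add le_rfl ((Set.ncard_union_le _ _).trans
        (add_le_add le_rfl (Set.ncard_union_le _ _)))))))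
    have := R.T1.ncard_classes (by decide)
    have := R.T2.ncard_classes (by decide)
    have := R.T3.ncard_classes (by decide)
    have := R.T4.ncard_classes (by decide)
    rw [Set.ncard_singleton] at h4
    rw [R.q_eq]; omega
  have h4 := Set.injOn_of_ncard_image_eq (f := f) (s := S) (le_antisymm (Set.ncard_image_le) (by
    rwa [h1, Set.ncard_univ]))
  exact ConjClasses.mk_eq_mk_iff_isConj.1 (h4 ⟨g, hg, rfl⟩ ⟨g', hg', rfl⟩ h)

theorem isConj_of_tr' {x g : Γ} (h2 : x ^ 2 ≠ 1) (h3 : ¬ 3 ∣ orderOf x) (h : R.tr x = R.tr g) : IsConj x g := by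
  obtain ⟨n, h4, h5⟩ := R.exists_pow_tr g
  obtain ⟨p, hp, h6, h7, h8⟩ := R.exists_prime h2 h3
  refine R.isConj_of_tr h3 (fun h9 => (R.card_centralizer hp h6 h7 h8).2 (h9.trans ?_)) h
  rw [card_centralizer_congr (R.isConj_of_tr h3 h4 (h.trans h5.symm))]
  exact orderOf_dvd_natCard _ (mem_centralizer_singleton_iff.2 (pow_mul_comm' g n).symm)

end RT

end Cfsg.Agent.Ree
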